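import Cfsg.Agent.H196.EP.RkThree
import Cfsg.Agent.H117.EP.ModelPSL
import Cfsg.Agent.KFacts.RgdFiltClass
import Cfsg.Agent.Schreier.ClassAll
import Cfsg.Agent.Schreier.PSU
import Cfsg.Agent.S0249
import Cfsg.Agent.S0283

/-!
# S3499: `soc(A) = PSL₃(K)` or `PSU₃(K, q)`: `|Q| ≤ |A|⁴` (helper196)
-/

set_option autoImplicit false
set_option linter.unusedSectionVars false

namespace Cfsg.Agent.H196.EP

open Subgroup Cfsg.Agent.H284 Cfsg.Agent.H419.EP Cfsg.Agent.H273.EPU Cfsg.Agent.Schreier.Basic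
open scoped MatrixGroups

/-- a simple central quotient is not commutative -/
theorem not_comm_quot {H : Type*} [Group H] [hs : IsSimpleGroup (H ⧸ Subgroup.center H)] :
    ¬ IsMulCommutative (H ⧸ Subgroup.center H) := by
  intro hc
  let _ : CommGroup (H ⧸ Subgroup.center H) :=
    { (inferInstance : Group (H ⧸ Subgroup.center H)) with mul_comm := hc.is_comm.comm }
  have hcyc : IsCyclic (H ⧸ Subgroup.center H) := IsSimpleGroup.isCyclic
  have h1 : ∀ a b : H, a * b = b * a := fun a b =>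
    commutative_of_cyclic_center_quotient (QuotientGroup.mk' (Subgroup.center H)) (by rw [QuotientGroup.ker_mk']) a b
  obtain ⟨x, hx⟩ := exists_ne (1 : H ⧸ Subgroup.center H)
  obtain ⟨a, rfl⟩ := QuotientGroup.mk_surjective x
  exact hx ((QuotientGroup.eq_one_iff a).2 (Subgroup.mem_center_iff.2 fun b => h1 b a))

variable {Q : Type*} [Group Q] [Finite Q] {A : Subgroup Q} {Γ : Subgroup (MulAut Q)}

/-- the bound for a socle of Lie type with small ranks -/
theorem card_le_of_rkTwo (hg : Cfsg.Agent.H59.EP.TwoGen.{0}) (hQ : IsSimpleGroup Q) (h : EPT A Γ) {L : Type*} [Group L]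
    (hL : IsSimpleGroup L) (hLn : ¬ IsMulCommutative L) (hSch : Sch L) {p : ℕ} [Fact p.Prime]
    (hF : Cfsg.Agent.KFacts.RgdFilt.HasFilt p L) (hR : RkTwo p L) (hA : HasSoc A L) :
    Nat.card Q ≤ Nat.card A ^ 4 := by
  have : Finite L := by
    obtain ⟨N, -, -, -, ⟨e⟩⟩ := hA
    exact Finite.of_equiv _ e.toEquiv
  exact card_le_of_locK hQ h hL hLn hSch hA (ncard_locK_of_filt hF (twoGenLoc_of_rkTwo hg hR))

section psl

variable {K : Type} [Field K] [Fintype K]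

theorem simple_psl3 : IsSimpleGroup (Matrix.ProjectiveSpecialLinearGroup (Fin 3) K) :=
  Cfsg.Agent.S0249.result (F := K) 3 (by norm_num)

theorem rkTwo_psl3 {p : ℕ} [Fact p.Prime] [CharP K p] :
    RkTwo p (Matrix.ProjectiveSpecialLinearGroup (Fin 3) K) := by
  obtain ⟨m⟩ := Cfsg.Agent.H117.EP.model_PSL (F := K) (n := 3) (by norm_num)
  exact rkTwo_of_model m le_rfl

theorem ncard_locK_psl3 (hg : Cfsg.Agent.H59.EP.TwoGen.{0}) :
    (LocK (Matrix.ProjectiveSpecialLinearGroup (Fin 3) K)).ncard ≤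
      2 * Nat.card (Matrix.ProjectiveSpecialLinearGroup (Fin 3) K) ^ 2 := by
  obtain ⟨p, hp⟩ := CharP.exists K
  have : Fact p.Prime := ⟨CharP.char_is_prime K p⟩
  have hfilt : Cfsg.Agent.KFacts.RgdFilt.HasFilt p (Matrix.ProjectiveSpecialLinearGroup (Fin 3) K) :=
    Cfsg.Agent.KFacts.RgdFiltClass.hasFilt_of_PSL ⟨K, inferInstance, inferInstance, inferInstance, 3, by norm_num,
      by norm_num, ⟨MulEquiv.refl _⟩⟩
  exact ncard_locK_of_filt hfilt (twoGenLoc_of_rkTwo hg rkTwo_psl3)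

/-- **`soc(A) = PSL₃(K)`** -/
theorem card_le_psl3 (hg : Cfsg.Agent.H59.EP.TwoGen.{0}) (hQ : IsSimpleGroup Q) (h : EPT A Γ)
    (hA : HasSoc A (Matrix.ProjectiveSpecialLinearGroup (Fin 3) K)) : Nat.card Q ≤ Nat.card A ^ 4 := by
  have hs := simple_psl3 (K := K)
  exact card_le_of_locK hQ h hs (not_comm_quot (H := Matrix.SpecialLinearGroup (Fin 3) K) (hs := hs))
    (Cfsg.Agent.Schreier.ClassAll.sch_psl ⟨K, inferInstance, inferInstance, 3, by norm_num, by norm_num,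
      ⟨MulEquiv.refl _⟩⟩) hA (ncard_locK_psl3 hg)

end psl

section psu

variable {K : Type} [Field K] [Fintype K] {q : ℕ}

theorem rkTwo_psu3 (hK : Fintype.card K = q ^ 2) {p : ℕ} [Fact p.Prime] [CharP K p] :
    RkTwo p (Cfsg.PSU 3 K q) := by
  obtain ⟨m⟩ := Cfsg.Agent.H117.EP.model_PSU hK (n := 3) le_rfl
  exact rkTwo_of_model m inf_le_right

theorem ncard_locK_psu3 (hg : Cfsg.Agent.H59.EP.TwoGen.{0}) (hK : Fintype.card K = q ^ 2) (hq : q ≠ 2) :
    (LocK (Cfsg.PSU 3 K q)).ncard ≤ 2 * Nat.card (Cfsg.PSU 3 K q) ^ 2 := by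
  obtain ⟨p, hp⟩ := CharP.exists K
  have : Fact p.Prime := ⟨CharP.char_is_prime K p⟩
  have : Finite (Cfsg.PSU 3 K q) := Quotient.finite _
  have hfilt : Cfsg.Agent.KFacts.RgdFilt.HasFilt p (Cfsg.PSU 3 K q) :=
    Cfsg.Agent.KFacts.RgdFiltClass.hasFilt_of_PSU ⟨K, inferInstance, inferInstance, inferInstance, 3, q, hK, le_rfl,
      fun e => hq e.2, ⟨MulEquiv.refl _⟩⟩
  exact ncard_locK_of_filt hfilt (twoGenLoc_of_rkTwo hg (rkTwo_psu3 hK))

/-- **`soc(A) = PSU₃(q)`** -/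
theorem card_le_psu3 (hg : Cfsg.Agent.H59.EP.TwoGen.{0}) (hQ : IsSimpleGroup Q) (h : EPT A Γ)
    (hK : Fintype.card K = q ^ 2) (hq : q ≠ 2) (hA : HasSoc A (Cfsg.PSU 3 K q)) : Nat.card Q ≤ Nat.card A ^ 4 := by
  have hs : IsSimpleGroup (Cfsg.PSU 3 K q) := Cfsg.Agent.S0283.result hK 3 le_rfl fun e => hq e.2
  exact card_le_of_locK hQ h hs (not_comm_quot (H := ↥(Cfsg.SU 3 K q)) (hs := hs))
    (Cfsg.Agent.Schreier.PSU.sch_of_isPSU ⟨K, inferInstance, inferInstance, 3, q, hK, le_rfl, fun e => hq e.2,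
      ⟨MulEquiv.refl _⟩⟩) hA (ncard_locK_psu3 hg hK hq)

end psu

end Cfsg.Agent.H196.EP
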