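import Cfsg.Agent.H196.EP.LocSoc
import Cfsg.Agent.H273.EPU.PType
import Cfsg.Agent.S5914

/-!
# S3499: groups whose local subgroups have a characteristic subgroup generated by two elements (helper196)

`RkTwo p N` : abelian `s`-subgroups of exponent `s ≠ p` of `N` have order at most `s²`, and `T × T` is no subgroup of `N`
for `T` simple nonabelian. Then `LocK N` has at most `|N|²` elements with `O_p = 1` (`ncard_pfree_le`).
-/

set_option autoImplicit false
set_option linter.unusedSectionVars false

namespace Cfsg.Agent.H196.EP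

open Subgroup Cfsg.Agent.H273.EPU

/-- a member of `LocK` is the normaliser of each of its characteristic subgroups -/
theorem locK_eq {L : Type*} [Group L] {H : Subgroup L} (hH : H ∈ LocK L) {Y : Subgroup H} (hY : Y.Characteristic)
    (hY0 : Y ≠ ⊥) : normalizer ((Y.map H.subtype : Subgroup L) : Set L) = H := by
  apply le_antisymm (hH.2 Y hY hY0)
  intro h hh
  rw [mem_normalizer_iff]
  have hn : Y.Normal := inferInstance
  intro x
  constructor
  · rintro ⟨y, hy, rfl⟩
    exact ⟨⟨h, hh⟩ * y * ⟨h, hh⟩⁻¹, hn.conj_mem y hy ⟨h, hh⟩, rfl⟩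
  · rintro ⟨y, hy, hy'⟩
    refine ⟨⟨h, hh⟩⁻¹ * y * ⟨h, hh⟩, ?_, ?_⟩
    · have h5 := hn.conj_mem y hy (⟨h, hh⟩ : H)⁻¹
      rw [inv_inv] at h5
      exact h5
    · have hy' : (y : L) = h * x * h⁻¹ := hy'
      change h⁻¹ * (y : L) * h = x
      rw [hy']
      group

/-- every subgroup `K ≠ 1` without characteristic `p`-subgroups has a characteristic subgroup `≠ 1` generated by two
elements -/
def TwoGenLoc (p : ℕ) (N : Type*) [Group N] : Prop :=
  ∀ K : Subgroup N, K ≠ ⊥ → (∀ Y : Subgroup K, Y.Characteristic → IsPGroup p Y → Y = ⊥) →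
    ∃ X : Subgroup K, X.Characteristic ∧ X ≠ ⊥ ∧ ∃ x y : K, closure {x, y} = X

/-- the members of `LocK N` with `O_p = 1` -/
theorem ncard_pfree_le {p : ℕ} {N : Type*} [Group N] [Finite N] (h : TwoGenLoc p N) :
    {K ∈ LocK N | pCore p K = ⊥}.ncard ≤ Nat.card N ^ 2 := by
  classical
  have hsub : {K ∈ LocK N | pCore p K = ⊥} ⊆
      Set.range fun z : N × N => normalizer ((closure {z.1, z.2} : Subgroup N) : Set N) := by
    rintro K ⟨hK, hKp⟩
    obtain ⟨X, hX, hX0, x, y, hxy⟩ := h K hK.1 fun Y hY hYp => by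
      rw [eq_bot_iff, ← hKp]
      exact Cfsg.Agent.Lib.Cores.le_pCore inferInstance hYp
    refine ⟨((x : N), (y : N)), ?_⟩
    have h1 : X.map K.subtype = closure {(x : N), (y : N)} := by
      rw [← hxy, MonoidHom.map_closure, Set.image_pair]
      rfl
    show normalizer ((closure {(x : N), (y : N)} : Subgroup N) : Set N) = K
    rw [← h1]
    exact locK_eq hK hX hX0
  refine (Set.ncard_le_ncard hsub (Set.toFinite _)).trans ?_
  rw [← Set.image_univ]
  refine (Set.ncard_image_le (Set.toFinite _)).trans ?_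
  rw [Set.ncard_univ, Nat.card_prod, pow_two]

theorem ncard_locK_le_add {p : ℕ} {N : Type*} [Group N] [Finite N] (h : TwoGenLoc p N) :
    (LocK N).ncard ≤ {K ∈ LocK N | pCore p K ≠ ⊥}.ncard + Nat.card N ^ 2 := by
  have hsub : LocK N ⊆ {K ∈ LocK N | pCore p K ≠ ⊥} ∪ {K ∈ LocK N | pCore p K = ⊥} := by
    intro K hK
    by_cases h1 : pCore p K = ⊥
    · exact Or.inr ⟨hK, h1⟩
    · exact Or.inl ⟨hK, h1⟩
  exact (Set.ncard_le_ncard hsub (Set.toFinite _)).trans ((Set.ncard_union_le _ _).trans
    (Nat.add_le_add_left (ncard_pfree_le h) _))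

theorem ncard_locK_of_filt {p : ℕ} [Fact p.Prime] {N : Type*} [Group N] [Finite N] (hF : Cfsg.Agent.KFacts.RgdFilt.HasFilt p N)
    (h : TwoGenLoc p N) : (LocK N).ncard ≤ 2 * Nat.card N ^ 2 := by
  refine (ncard_locK_le_add h).trans ?_
  rw [two_mul]
  exact Nat.add_le_add_right (ncard_p_le hF) _

/-- an `s`-group of order at most `s²` is generated by two elements -/
theorem two_gen_of_card {X : Type*} [Group X] [Finite X] {s : ℕ} (hs : s.Prime) (hX : IsPGroup s X)
    (hc : Nat.card X ≤ s ^ 2) : ∃ x y : X, closure ({x, y} : Set X) = ⊤ := by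
  have : Fact s.Prime := ⟨hs⟩
  by_cases hcyc : IsCyclic X
  · obtain ⟨g, hg⟩ := hcyc.exists_generator
    refine ⟨g, g, ?_⟩
    rw [Set.pair_eq_singleton, ← zpowers_eq_closure]
    exact (Subgroup.eq_top_iff' _).2 hg
  · obtain ⟨x, hx⟩ : ∃ x : X, x ≠ 1 := by
      by_contra hcon
      push Not at hcon
      exact hcyc ⟨1, fun y => by rw [hcon y]; exact mem_zpowers _⟩
    obtain ⟨y, hy⟩ : ∃ y : X, y ∉ zpowers x := by
      by_contra hcon
      push Not at hcon
      exact hcyc ⟨x, hcon⟩
    refine ⟨x, y, ?_⟩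
    apply Subgroup.eq_top_of_card_eq
    apply le_antisymm (Nat.card_le_card_of_injective _ (Subgroup.subtype_injective _))
    refine hc.trans ?_
    have hle : zpowers x ≤ closure ({x, y} : Set X) := by
      rw [zpowers_le]
      exact subset_closure (by simp)
    obtain ⟨i, hi⟩ := IsPGroup.iff_card.1 (hX.to_subgroup (zpowers x))
    obtain ⟨j, hj⟩ := IsPGroup.iff_card.1 (hX.to_subgroup (closure ({x, y} : Set X)))
    rw [hj]
    apply Nat.pow_le_pow_right hs.pos
    have hi1 : 1 ≤ i := by
      by_contra hcon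
      have hi0 : i = 0 := by omega
      rw [hi0, pow_zero, Subgroup.card_eq_one, zpowers_eq_bot] at hi
      exact hx hi
    by_contra hcon
    have hji : j ≤ i := by omega
    have h1 : Nat.card (closure ({x, y} : Set X)) ≤ Nat.card (zpowers x) := by
      rw [hi, hj]
      exact Nat.pow_le_pow_right hs.pos hji
    have h2 : zpowers x = closure ({x, y} : Set X) := Subgroup.eq_of_le_of_card_ge hle h1
    apply hy
    rw [h2]
    exact subset_closure (by simp)

/-- small `s`-rank, and no `T × T` -/
structure RkTwo (p : ℕ) (N : Type*) [Group N] : Prop where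
  ab : ∀ s : ℕ, s.Prime → s ≠ p → ∀ E : Subgroup N, (∀ a ∈ E, ∀ b ∈ E, a * b = b * a) → (∀ a ∈ E, a ^ s = 1) →
    Nat.card E ≤ s ^ 2
  nonab : ∀ (T : Type) [Group T] (f : T × T →* N), IsSimpleGroup T → ¬ IsMulCommutative T → ¬ Function.Injective f

theorem RkTwo.congr {p : ℕ} {N N' : Type*} [Group N] [Group N'] (h : RkTwo p N) (e : N ≃* N') : RkTwo p N' := by
  refine ⟨fun s hs hsp E hE1 hE2 => ?_, fun T _ f h1 h2 h3 => ?_⟩
  · have h1 := h.ab s hs hsp (E.map e.symm.toMonoidHom) (by
      rintro _ ⟨a, ha, rfl⟩ _ ⟨b, hb, rfl⟩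
      rw [← map_mul, ← map_mul, hE1 a ha b hb]) (by
      rintro _ ⟨a, ha, rfl⟩
      rw [← map_pow, hE2 a ha, map_one])
    rwa [Nat.card_congr (E.equivMapOfInjective e.symm.toMonoidHom e.symm.injective).toEquiv.symm] at h1
  · exact h.nonab T (e.symm.toMonoidHom.comp f) h1 h2 (e.symm.injective.comp h3)

/-- the minimal characteristic subgroups of a subgroup `K` -/
theorem char_cases {N : Type*} [Group N] [Finite N] {K : Subgroup N} (hK : K ≠ ⊥) :
    ∃ X : Subgroup K, X.Characteristic ∧ X ≠ ⊥ ∧ ∃ (S : Type) (_ : Group S) (_ : IsSimpleGroup S) (n : ℕ), 1 ≤ n ∧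
      Nonempty (X ≃* (Fin n → S)) := by
  have hnt : Nontrivial K := (Subgroup.nontrivial_iff_ne_bot _).2 hK
  obtain ⟨X, hX, hX0, hmin⟩ := Cfsg.Agent.H59.EP.exists_min_char (B := K)
  refine ⟨X, hX, hX0, ?_⟩
  have : Nontrivial X := (Subgroup.nontrivial_iff_ne_bot _).2 hX0
  apply (Cfsg.Agent.S5914.result (G := X)).1
  intro Y hY
  by_cases hY0 : Y = ⊥
  · exact Or.inl hY0
  · right
    have h1 := hmin (Y.map X.subtype) (@Cfsg.Agent.H59.EP.char_trans _ _ X hX Y hY) (by
      rintro _ ⟨y, _, rfl⟩
      exact y.2) (by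
      intro e
      rw [Subgroup.map_eq_bot_iff_of_injective _ X.subtype_injective] at e
      exact hY0 e)
    apply Subgroup.map_injective X.subtype_injective
    rw [h1, ← MonoidHom.range_eq_map, Subgroup.range_subtype]

/-- in the abelian case the group is elementary abelian -/
theorem pi_comm {S : Type*} [Group S] (hs : IsSimpleGroup S) (hc : IsMulCommutative S) {X : Type*} [Group X] [Finite X]
    {n : ℕ} (hn : 1 ≤ n) (e : X ≃* (Fin n → S)) :
    ∃ s : ℕ, s.Prime ∧ IsPGroup s X ∧ (∀ a b : X, a * b = b * a) ∧ ∀ a : X, a ^ s = 1 := by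
  have hfS : Finite S := by
    have : Finite (Fin n → S) := Finite.of_equiv _ e.toEquiv
    have hn0 : 0 < n := hn
    refine Finite.of_injective (fun t : S => (fun _ => t : Fin n → S)) fun a b h => congrFun h ⟨0, hn0⟩
  let _ : CommGroup S := { (inferInstance : Group S) with mul_comm := fun a b => hc.is_comm.comm a b }
  have hp : (Nat.card S).Prime := IsSimpleGroup.prime_card
  have hexp : ∀ a : X, a ^ Nat.card S = 1 := by
    intro a
    apply e.injective
    rw [map_pow, map_one]
    funext i
    rw [Pi.pow_apply, pow_card_eq_one', Pi.one_apply]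
  refine ⟨Nat.card S, hp, ?_, ?_, hexp⟩
  · intro a
    exact ⟨1, by rw [pow_one]; exact hexp a⟩
  · intro a b
    apply e.injective
    rw [map_mul, map_mul]
    funext i
    rw [Pi.mul_apply, Pi.mul_apply]
    exact mul_comm _ _

theorem twoGenLoc_of_rkTwo (hg : Cfsg.Agent.H59.EP.TwoGen.{0}) {p : ℕ} {N : Type*} [Group N] [Finite N]
    (h : RkTwo p N) : TwoGenLoc p N := by
  intro K hK hKp
  obtain ⟨X, hX, hX0, S, iS, hS, n, hn, ⟨e⟩⟩ := char_cases hK
  refine ⟨X, hX, hX0, ?_⟩
  -- two generators of `X`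
  suffices H : ∃ x y : X, closure ({x, y} : Set X) = ⊤ by
    obtain ⟨x, y, hxy⟩ := H
    refine ⟨x, y, ?_⟩
    have h1 := congrArg (Subgroup.map X.subtype) hxy
    rw [MonoidHom.map_closure, ← MonoidHom.range_eq_map, Subgroup.range_subtype, Set.image_pair] at h1
    exact h1
  by_cases hc : IsMulCommutative S
  · obtain ⟨s, hs, hXs, hXc, hXe⟩ := pi_comm hS hc hn e
    have hsp : s ≠ p := by
      rintro rfl
      exact hX0 (hKp X hX hXs)
    refine two_gen_of_card hs hXs ?_
    have h1 := h.ab s hs hsp ((X.map K.subtype)) (by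
      rintro _ ⟨a, ha, rfl⟩ _ ⟨b, hb, rfl⟩
      rw [← map_mul, ← map_mul]
      exact congrArg _ (congrArg Subtype.val (hXc ⟨a, ha⟩ ⟨b, hb⟩))) (by
      rintro _ ⟨a, ha, rfl⟩
      rw [← map_pow]
      have h2 : a ^ s = 1 := congrArg Subtype.val (hXe ⟨a, ha⟩)
      rw [h2, map_one])
    rwa [Nat.card_congr (X.equivMapOfInjective K.subtype K.subtype_injective).toEquiv.symm] at h1
  · -- `n = 1`
    have hn1 : n = 1 := by
      by_contra hcon
      have h2 : 2 ≤ n := by omega
      let i0 : Fin n := ⟨0, by omega⟩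
      let i1 : Fin n := ⟨1, by omega⟩
      have h01 : i0 ≠ i1 := by
        intro e
        have := congrArg Fin.val e
        exact absurd this (by norm_num [i0, i1])
      let g : S × S →* (Fin n → S) :=
        { toFun := fun z i => if i = i0 then z.1 else if i = i1 then z.2 else 1
          map_one' := by
            funext i
            simp
          map_mul' := fun a b => by
            funext i
            rw [Pi.mul_apply]
            by_cases h1 : i = i0
            · simp [h1]
            · by_cases h2 : i = i1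
              · simp [h2, h01.symm]
              · simp [h1, h2] }
      have hgi : Function.Injective g := by
        intro a b hab
        have h3 := congrFun hab i0
        have h4 := congrFun hab i1
        have h3' : a.1 = b.1 := by simpa [g] using h3
        have h4' : a.2 = b.2 := by simpa [g, h01.symm] using h4
        exact Prod.ext h3' h4'
      refine h.nonab S (((K.subtype.comp X.subtype).comp e.symm.toMonoidHom).comp g) hS hc ?_
      exact (((K.subtype_injective).comp (X.subtype_injective)).comp e.symm.injective).comp hgi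
    subst hn1
    let e' : X ≃* S := e.trans (MulEquiv.funUnique (Fin 1) S)
    have hfS : Finite S := Finite.of_equiv _ e'.toEquiv
    obtain ⟨x, y, hxy⟩ := hg S
    refine ⟨e'.symm x, e'.symm y, ?_⟩
    have h1 := congrArg (Subgroup.map e'.symm.toMonoidHom) hxy
    rw [MonoidHom.map_closure, ← MonoidHom.range_eq_map, MonoidHom.range_eq_top.2 e'.symm.surjective,
      Set.image_pair] at h1
    exact h1

end Cfsg.Agent.H196.EP
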