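import Cfsg.Agent.H212.EP.Sp12
import Cfsg.Agent.H273.EPU.OwnTen

/-!
# S3499, own characteristic: `PSp₄(q)`, `q` odd, in `PSp₁₂(q)` (helper196; row of S5869)
-/

set_option autoImplicit false

namespace Cfsg.Agent.H196.EP

open Subgroup Cfsg.Agent.H284 Cfsg.Agent.H419.EP
open scoped MatrixGroups

/-- **`PSp₄(q)` in `PSp₁₂(q)`**, `q` odd -/
theorem own_sp12 {Q : Type} [Group Q] [Finite Q] {A : Subgroup Q} {Γ : Subgroup (MulAut Q)} (hs : IsSimpleGroup Q)
    (h : EPT A Γ) (hg : Cfsg.Agent.H59.EP.TwoGen.{0})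
    (hsol : ∀ (T : Type) [Group T] [Finite T], Odd (Nat.card T) → Group.IsSolvable T)
    {F : Type} [Field F] [Fintype F] (m : Model Q (Cfsg.spGL 6 F)) (hodd : Odd (Fintype.card F))
    (hS : HasSoc A (Cfsg.PSp 2 F)) : False := by
  refine Cfsg.Agent.H273.EPU.own hs h hg (Cfsg.Agent.H273.EPU.ft_of hsol) hodd hS ?_
  have h1 := Cfsg.Agent.H212.EP.card_le_model m
  have h2 := Cfsg.Agent.H212.EP.card_sp12_ge (F := F)
  have hq : 1 < Fintype.card F := Fintype.one_lt_card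
  have h5 : Fintype.card F ^ 71 * Fintype.card F ≤ Nat.card Q * Fintype.card F := by
    calc Fintype.card F ^ 71 * Fintype.card F = Fintype.card F ^ 72 := by rw [← pow_succ]
      _ ≤ Nat.card (Cfsg.spGL 6 F) := h2
      _ ≤ Nat.card Q * (Fintype.card F - 1) := h1
      _ ≤ Nat.card Q * Fintype.card F := Nat.mul_le_mul_left _ (Nat.sub_le _ _)
  have h6 : Fintype.card F ^ 71 ≤ Nat.card Q := Nat.le_of_mul_le_mul_right h5 (by omega)
  have h7 : Fintype.card F ^ 45 ≤ Fintype.card F ^ 71 := Nat.pow_le_pow_right (by omega) (by norm_num)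
  omega

/-- the hypothesis `hown5` of `H212.EP.row_sp12` -/
theorem hown5 {Q : Type} [Group Q] [Finite Q] {A : Subgroup Q} {Γ : Subgroup (MulAut Q)} (hs : IsSimpleGroup Q)
    (h : EPT A Γ) (hg : Cfsg.Agent.H59.EP.TwoGen.{0})
    (hsol : ∀ (T : Type) [Group T] [Finite T], Odd (Nat.card T) → Group.IsSolvable T)
    {F : Type} [Field F] [Fintype F] (m : Model Q (Cfsg.spGL 6 F)) :
    CharP F 5 → HasSoc A (Cfsg.PSp 2 F) → False := by
  intro h5 hS
  refine own_sp12 hs h hg hsol m ?_ hS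
  obtain ⟨n, -, hn⟩ := FiniteField.card F 5
  rw [hn]
  exact Odd.pow (by decide)

end Cfsg.Agent.H196.EP
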