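import Mathlib

/-!
# Linear algebra over finite fields (helper196)

* `card_le_finrank` : a `p`-group `G` acting on an `F`-space `V` of characteristic `p` with `∑ g y ≠ 0`: `|G| ≤ dim V`;
* `exists_fixed` : fixed vectors of a `p`-group in an invariant subspace;
* `exists_eigen` : an eigenvector of `g`, `g ^ (|F| - 1) = 1`, in an invariant subspace.
-/

set_option autoImplicit false

namespace Cfsg.Agent.H196.EP

open Module

variable {F : Type*} [Field F] {V : Type*} [AddCommGroup V] [Module F V]

/-- an additive group `≠ 0` of exponent `p` has order divisible by `p` -/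
theorem dvd_card_of_exp {p : ℕ} (hp : p.Prime) {X : Type*} [AddCommGroup X] (hx : ∀ x : X, p • x = 0) {x : X}
    (h : x ≠ 0) : p ∣ Nat.card X := by
  have := Fact.mk hp
  rw [← addOrderOf_eq_prime (hx x) h]
  exact addOrderOf_dvd_natCard x

/-- a `p`-group acting on a finite group of exponent `p`, `≠ 0`, has nonzero fixed points -/
theorem exists_fixed_of {p : ℕ} (hp : p.Prime) {G : Type*} [Group G] (hG : IsPGroup p G) {X : Type*} [AddCommGroup X] [Finite X]
    [DistribMulAction G X] (hx : ∀ x : X, p • x = 0) {x : X} (h : x ≠ 0) : ∃ y : X, y ≠ 0 ∧ ∀ g : G, g • y = y := by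
  have := Fact.mk hp
  obtain ⟨b, hb, hb0⟩ := hG.exists_fixed_point_of_prime_dvd_card_of_fixed_point X (dvd_card_of_exp hp hx h)
    (a := (0 : X)) (fun g => smul_zero g)
  exact ⟨b, fun e => hb0 e.symm, fun g => hb g⟩

/-- **Norm**: a `p`-group `G` acting on `V`, with `∑ g y ≠ 0`, has order at most `dim V` -/
theorem card_le_finrank [Finite F] {p : ℕ} (hp : p.Prime) [CharP F p] {G : Type*} [Group G] [Fintype G] (hG : IsPGroup p G)
    [FiniteDimensional F V] (ρ : G →* Module.End F V) (y : V) (hy : ∑ g, ρ g y ≠ 0) : Fintype.card G ≤ finrank F V := by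
  apply LinearIndependent.fintype_card_le_finrank (b := fun g => ρ g y)
  by_contra hli
  rw [Fintype.not_linearIndependent_iff] at hli
  obtain ⟨a, ha, i, hai⟩ := hli
  let I : AddSubgroup (G → F) :=
    { carrier := {a | ∑ g, a g • ρ g y = 0}
      zero_mem' := by simp
      add_mem' := by
        intro a b ha hb
        show ∑ g, (a g + b g) • ρ g y = 0
        simp only [add_smul, Finset.sum_add_distrib]
        rw [show ∑ g, a g • ρ g y = 0 from ha, show ∑ g, b g • ρ g y = 0 from hb, add_zero]
      neg_mem' := by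
        intro a ha
        show ∑ g, (-a g) • ρ g y = 0
        simp only [neg_smul, Finset.sum_neg_distrib]
        rw [show ∑ g, a g • ρ g y = 0 from ha, neg_zero] }
  let act : DistribMulAction G I :=
    { smul := fun h a => ⟨fun g => (a : G → F) (h⁻¹ * g), by
        show ∑ g, (a : G → F) (h⁻¹ * g) • ρ g y = 0
        have h1 : ∑ g, (a : G → F) g • ρ g y = 0 := a.2
        have h2 := congrArg (ρ h) h1
        rw [map_zero, map_sum] at h2
        rw [← h2]
        refine Fintype.sum_equiv (Equiv.mulLeft h⁻¹) _ _ fun g => ?_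
        show _ = ρ h ((a : G → F) (h⁻¹ * g) • ρ (h⁻¹ * g) y)
        rw [map_smul]
        congr 1
        rw [← Module.End.mul_apply, ← map_mul, mul_inv_cancel_left]⟩
      one_smul := by
        intro a
        apply Subtype.ext
        funext g
        show (a : G → F) (1⁻¹ * g) = (a : G → F) g
        rw [inv_one, one_mul]
      mul_smul := by
        intro h k a
        apply Subtype.ext
        funext g
        show (a : G → F) ((h * k)⁻¹ * g) = (a : G → F) (k⁻¹ * (h⁻¹ * g))
        rw [mul_inv_rev, mul_assoc]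
      smul_zero := by
        intro h
        rfl
      smul_add := by
        intro h a b
        rfl }
  have hfin : Finite I := inferInstance
  obtain ⟨b, hb0, hb⟩ := exists_fixed_of hp hG (X := I) (by
    intro x
    apply Subtype.ext
    funext g
    show (p • (x : G → F)) g = 0
    rw [Pi.smul_apply, nsmul_eq_mul, CharP.cast_eq_zero, zero_mul]) (x := ⟨a, ha⟩) (fun e => hai (by
      have := congrArg (fun x : I => (x : G → F) i) e
      exact this))
  have h3 : ∀ g, (b : G → F) g = (b : G → F) 1 := by
    intro g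
    have h4 := congrArg (fun x : I => (x : G → F) g) (hb g)
    have h5 : (b : G → F) (g⁻¹ * g) = (b : G → F) g := h4
    rw [inv_mul_cancel] at h5
    exact h5.symm
  apply hy
  have h6 : ∑ g, (b : G → F) g • ρ g y = 0 := b.2
  simp only [h3] at h6
  rw [← Finset.smul_sum] at h6
  rcases smul_eq_zero.1 h6 with h7 | h7
  · exfalso
    apply hb0
    apply Subtype.ext
    funext g
    rw [h3, h7]
    rfl
  · exact h7

/-- fixed vectors of a `p`-group -/
theorem exists_fixed [Finite V] {p : ℕ} (hp : p.Prime) [CharP F p] {G : Type*} [Group G] (hG : IsPGroup p G)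
    (ρ : G →* Module.End F V) {y : V} (hy : y ≠ 0) : ∃ v : V, v ≠ 0 ∧ ∀ g, ρ g v = v := by
  let act : DistribMulAction G V :=
    { smul := fun g v => ρ g v
      one_smul := fun v => by show ρ 1 v = v; rw [map_one, Module.End.one_apply]
      mul_smul := fun g h v => by show ρ (g * h) v = ρ g (ρ h v); rw [map_mul, Module.End.mul_apply]
      smul_zero := fun g => map_zero (ρ g)
      smul_add := fun g v w => map_add (ρ g) v w }
  obtain ⟨v, hv, h⟩ := exists_fixed_of hp hG (X := V) (by
    intro x
    rw [← Nat.cast_smul_eq_nsmul F, CharP.cast_eq_zero, zero_smul]) hy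
  exact ⟨v, hv, h⟩

/-- an eigenvector in an invariant subspace -/
theorem exists_eigen [Fintype F] [FiniteDimensional F V] (g : Module.End F V) (hg : g ^ (Fintype.card F - 1) = 1)
    (W : Submodule F V) (hW : ∀ v ∈ W, g v ∈ W) {y : V} (hy : y ∈ W) (hy0 : y ≠ 0) :
    ∃ v ∈ W, v ≠ 0 ∧ ∃ c : F, g v = c • v := by
  classical
  let g' : Module.End F W := g.restrict hW
  have hnt : Nontrivial W := ⟨⟨⟨y, hy⟩, 0, fun e => hy0 (congrArg Subtype.val e)⟩⟩
  have hpow : ∀ n : ℕ, ∀ w : W, ((g' ^ n) w : V) = (g ^ n) w := by
    intro n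
    induction n with
    | zero => intro w; rfl
    | succ n ih =>
      intro w
      rw [pow_succ, pow_succ, Module.End.mul_apply, Module.End.mul_apply, ih]
      rfl
  have hg' : g' ^ (Fintype.card F - 1) = 1 := by
    ext w
    rw [hpow, hg]
    rfl
  have hdvd : minpoly F g' ∣ (Polynomial.X ^ Fintype.card F - Polynomial.X : Polynomial F) := by
    apply minpoly.dvd
    rw [map_sub, Polynomial.aeval_X_pow, Polynomial.aeval_X]
    have h1 : 1 ≤ Fintype.card F := Fintype.card_pos
    rw [← Nat.sub_add_cancel h1, pow_succ, hg', one_mul, sub_self]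
  have hsp : (Polynomial.X ^ Fintype.card F - Polynomial.X : Polynomial F).Splits := by
    have := FiniteField.X_pow_card_sub_X_ne_zero F (Fintype.one_lt_card (α := F))
    rw [Polynomial.splits_iff_card_roots]
    rw [FiniteField.X_pow_card_sub_X_natDegree_eq F Fintype.one_lt_card, FiniteField.roots_X_pow_card_sub_X]
    rfl
  have hne := FiniteField.X_pow_card_sub_X_ne_zero F (Fintype.one_lt_card (α := F))
  have hdeg : (minpoly F g').degree ≠ 0 := (minpoly.degree_pos (Algebra.IsIntegral.isIntegral g')).ne'
  obtain ⟨c, hc⟩ := (hsp.of_dvd hne hdvd).exists_eval_eq_zero hdeg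
  have hev := Module.End.hasEigenvalue_of_isRoot (f := g') (μ := c) hc
  obtain ⟨v, hv⟩ := hev.exists_hasEigenvector
  refine ⟨v, v.2, fun e => hv.2 (Subtype.ext e), c, ?_⟩
  exact congrArg Subtype.val hv.apply_eq_smul

end Cfsg.Agent.H196.EP
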