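import Cfsg.Agent.H196.EP.LocTwo
import Cfsg.Agent.H196.EP.NoTwo
import Cfsg.Agent.H419.EP.Iface

/-!
# Projective groups in dimension three (helper196)

`rkTwo_of_model` : the quotient `L` of `S ≤ SL₃(F)` by its scalars satisfies `RkTwo p L`, `p = char F`.
-/

set_option autoImplicit false
set_option linter.unusedSectionVars false

namespace Cfsg.Agent.H196.EP

open Module Cfsg.Agent.H419.EP Cfsg.Agent.Schreier.Basic
open scoped MatrixGroups commutatorElement

section lin

variable {K V : Type*} [Field K] [AddCommGroup V] [Module K V]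

/-- an endomorphism commuting with `x`, `y`, `xy = c yx`, `c³ = 1 ≠ c`, is scalar -/
theorem scalar_of_comm [IsAlgClosed K] [FiniteDimensional K V] (hV : finrank K V = 3) {x y z : Module.End K V} {c : K}
    (hc : c ≠ 1) (hc3 : c ^ 3 = 1) (hxy : x * y = c • (y * x)) (hx : Function.Injective x) (hy : Function.Injective y)
    (hzx : z * x = x * z) (hzy : z * y = y * z) : ∃ μ : K, z = μ • (1 : Module.End K V) := by
  have hnt : Nontrivial V := nontrivial_of_finrank_pos (R := K) (by rw [hV]; norm_num)
  obtain ⟨μ, hμ⟩ := Module.End.exists_eigenvalue z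
  refine ⟨μ, ?_⟩
  set W := LinearMap.ker (z - μ • (1 : Module.End K V)) with hW
  have hmem : ∀ v, v ∈ W ↔ z v = μ • v := by
    intro v
    rw [hW, LinearMap.mem_ker, LinearMap.sub_apply, LinearMap.smul_apply, Module.End.one_apply, sub_eq_zero]
  obtain ⟨u, hu⟩ := hμ.exists_hasEigenvector
  have hWx : ∀ v ∈ W, x v ∈ W := by
    intro v hv
    rw [hmem] at hv ⊢
    rw [← Module.End.mul_apply, hzx, Module.End.mul_apply, hv, map_smul]
  have hWy : ∀ v ∈ W, y v ∈ W := by
    intro v hv
    rw [hmem] at hv ⊢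
    rw [← Module.End.mul_apply, hzy, Module.End.mul_apply, hv, map_smul]
  have huW : u ∈ W := (hmem u).2 hu.apply_eq_smul
  have hntW : Nontrivial W := ⟨⟨⟨u, huW⟩, 0, fun e => hu.2 (congrArg Subtype.val e)⟩⟩
  obtain ⟨l, hl⟩ := Module.End.exists_eigenvalue (x.restrict hWx)
  obtain ⟨w, hw⟩ := hl.exists_hasEigenvector
  obtain ⟨v, hvW⟩ := w
  have hv0 : v ≠ 0 := fun e => hw.2 (Subtype.ext e)
  have hxv : x v = l • v := congrArg Subtype.val hw.apply_eq_smul
  have hl0 : l ≠ 0 := by
    rintro rfl
    rw [zero_smul] at hxv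
    exact hv0 (hx (hxv.trans (map_zero x).symm))
  have hc0 : c ≠ 0 := by
    rintro rfl
    rw [zero_pow (by norm_num)] at hc3
    exact zero_ne_one hc3
  have hxy' : ∀ v, x (y v) = c • y (x v) := by
    intro v
    rw [← Module.End.mul_apply, hxy, LinearMap.smul_apply, Module.End.mul_apply]
  have hxv1 : x (y v) = (c * l) • y v := by
    rw [hxy', hxv, map_smul, smul_smul]
  have hxv2 : x (y (y v)) = (c * (c * l)) • y (y v) := by
    rw [hxy', hxv1, map_smul, smul_smul]
  have hy0 : y v ≠ 0 := fun e => hv0 (hy (e.trans (map_zero y).symm))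
  have hy1 : y (y v) ≠ 0 := fun e => hy0 (hy (e.trans (map_zero y).symm))
  have hc2 : c * c ≠ 1 := by
    intro e
    apply hc
    have : c ^ 3 = c * c * c := by ring
    rw [this, e, one_mul] at hc3
    exact hc3
  have hli := Module.End.eigenvectors_linearIndependent' x (![l, c * l, c * (c * l)] : Fin 3 → K) (by
    have h01 : l ≠ c * l := by
      intro e
      apply hc
      have : (c - 1) * l = 0 := by linear_combination -e
      rcases mul_eq_zero.1 this with h | h
      · exact sub_eq_zero.1 h
      · exact absurd h hl0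
    have h02 : l ≠ c * (c * l) := by
      intro e
      apply hc2
      have : (c * c - 1) * l = 0 := by linear_combination -e
      rcases mul_eq_zero.1 this with h | h
      · exact sub_eq_zero.1 h
      · exact absurd h hl0
    have h12 : c * l ≠ c * (c * l) := by
      intro e
      exact h01 (mul_left_cancel₀ hc0 e)
    intro i j hij
    fin_cases i <;> fin_cases j <;> simp at hij ⊢
    · exact absurd hij h01
    · exact absurd hij h02
    · exact absurd hij h01.symm
    · rcases hij with e | e
      · exact absurd e h01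
      · exact absurd e hc0
    · exact absurd hij h02.symm
    · rcases hij with e | e
      · exact absurd e h01.symm
      · exact absurd e hc0) (![v, y v, y (y v)] : Fin 3 → V) (by
    intro i
    fin_cases i
    · exact ⟨Module.End.mem_eigenspace_iff.2 hxv, hv0⟩
    · exact ⟨Module.End.mem_eigenspace_iff.2 hxv1, hy0⟩
    · exact ⟨Module.End.mem_eigenspace_iff.2 hxv2, hy1⟩)
  have hspan : Submodule.span K (Set.range (![v, y v, y (y v)] : Fin 3 → V)) ≤ W := by
    rw [Submodule.span_le]
    rintro _ ⟨i, rfl⟩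
    fin_cases i
    · exact hvW
    · exact hWy _ hvW
    · exact hWy _ (hWy _ hvW)
  have h3 : finrank K (Submodule.span K (Set.range (![v, y v, y (y v)] : Fin 3 → V))) = 3 := by
    rw [finrank_span_eq_card hli, Fintype.card_fin]
  have hWtop : W = ⊤ := by
    apply Submodule.eq_top_of_finrank_eq
    apply le_antisymm (Submodule.finrank_le W)
    rw [hV, ← h3]
    exact Submodule.finrank_mono hspan
  ext v
  have : v ∈ W := by rw [hWtop]; exact Submodule.mem_top
  rw [LinearMap.smul_apply, Module.End.one_apply]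
  exact (hmem v).1 this

end lin

section mat

variable {F : Type*} [Field F]

/-- the action on `F³` -/
noncomputable def toEnd (F : Type*) [Field F] : GL (Fin 3) F →* Module.End F (Fin 3 → F) :=
  ((Matrix.toLinAlgEquiv' : Matrix (Fin 3) (Fin 3) F ≃ₐ[F] _) : Matrix (Fin 3) (Fin 3) F →* _).comp
    (Units.coeHom (Matrix (Fin 3) (Fin 3) F))

theorem toEnd_apply (g : GL (Fin 3) F) : toEnd F g = Matrix.toLin' (g : Matrix (Fin 3) (Fin 3) F) := rfl

theorem toEnd_injective : Function.Injective (toEnd F) := by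
  intro a b h
  apply Units.ext
  exact (Matrix.toLinAlgEquiv' : Matrix (Fin 3) (Fin 3) F ≃ₐ[F] _).injective h

/-- the action on `K³`, `K` the algebraic closure -/
noncomputable def toEndK (F : Type*) [Field F] : GL (Fin 3) F →* Module.End (AlgebraicClosure F) (Fin 3 → AlgebraicClosure F) :=
  (toEnd (AlgebraicClosure F)).comp (Matrix.GeneralLinearGroup.map (algebraMap F (AlgebraicClosure F)))

theorem toEndK_apply (g : GL (Fin 3) F) : toEndK F g =
    Matrix.toLin' ((g : Matrix (Fin 3) (Fin 3) F).map (algebraMap F (AlgebraicClosure F))) := rfl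

theorem toEndK_injective : Function.Injective (toEndK F) := by
  intro a b h
  have h1 := toEnd_injective h
  apply Units.ext
  ext i j
  have h2 := congrArg (fun g : GL (Fin 3) (AlgebraicClosure F) => (g : Matrix (Fin 3) (Fin 3) (AlgebraicClosure F)) i j) h1
  exact (algebraMap F (AlgebraicClosure F)).injective h2

theorem injective_toEndK (g : GL (Fin 3) F) : Function.Injective (toEndK F g) := by
  intro v w h
  have h1 : toEndK F (g⁻¹) (toEndK F g v) = toEndK F (g⁻¹) (toEndK F g w) := by rw [h]
  rwa [← Module.End.mul_apply, ← Module.End.mul_apply, ← map_mul, inv_mul_cancel, map_one] at h1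

theorem mem_scalars_of_toEndK {g : GL (Fin 3) F} {μ : AlgebraicClosure F}
    (h : toEndK F g = μ • (1 : Module.End (AlgebraicClosure F) (Fin 3 → AlgebraicClosure F))) :
    g ∈ Cfsg.Geo.scalars (Fin 3) F := by
  have h1 : (g : Matrix (Fin 3) (Fin 3) F).map (algebraMap F (AlgebraicClosure F)) =
      μ • (1 : Matrix (Fin 3) (Fin 3) (AlgebraicClosure F)) := by
    apply Matrix.toLin'.injective
    rw [← toEndK_apply, h, map_smul]
    congr 1
    exact (Matrix.toLin'_one).symm
  have h2 : ∀ i j, algebraMap F (AlgebraicClosure F) ((g : Matrix (Fin 3) (Fin 3) F) i j) = if i = j then μ else 0 := by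
    intro i j
    have := congrFun (congrFun h1 i) j
    rw [Matrix.map_apply, Matrix.smul_apply, Matrix.one_apply] at this
    rw [this]
    split_ifs <;> simp
  have hinj := (algebraMap F (AlgebraicClosure F)).injective
  have h3 : (g : Matrix (Fin 3) (Fin 3) F) = ((g : Matrix (Fin 3) (Fin 3) F) 0 0) • (1 : Matrix (Fin 3) (Fin 3) F) := by
    ext i j
    apply hinj
    rw [Matrix.smul_apply, Matrix.one_apply, h2]
    split_ifs with hij
    · rw [smul_eq_mul, mul_one, h2, if_pos rfl]
    · rw [smul_zero, map_zero]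
  rw [Cfsg.Geo.mem_scalars_iff]
  have h0 : (g : Matrix (Fin 3) (Fin 3) F) 0 0 ≠ 0 := by
    intro e
    rw [e, zero_smul] at h3
    have := g.isUnit
    rw [h3] at this
    exact not_isUnit_zero this
  exact ⟨Units.mk0 _ h0, h3⟩

end mat

section grp

variable {F : Type*} [Field F] {L : Type*} [Group L] {S : Subgroup (GL (Fin 3) F)} (m : Model L S)

theorem card_eq_range_mul_ker {G H : Type*} [Group G] [Group H] (f : G →* H) :
    Nat.card G = Nat.card f.range * Nat.card f.ker := by
  rw [Subgroup.card_eq_card_quotient_mul_card_subgroup f.ker,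
    Nat.card_congr (QuotientGroup.quotientKerEquivRange f).toEquiv]

include m

theorem exists_scal {z : S} (hz : m.π z = 1) :
    ∃ c : Fˣ, ((z : GL (Fin 3) F) : Matrix (Fin 3) (Fin 3) F) = (c : F) • (1 : Matrix (Fin 3) (Fin 3) F) :=
  (Cfsg.Geo.mem_scalars_iff _).1 ((m.ker z).1 hz)

theorem ker_central {z : S} (hz : m.π z = 1) (s : S) : z * s = s * z := by
  obtain ⟨c, hc⟩ := exists_scal m hz
  apply Subtype.ext
  apply Units.ext
  rw [Subgroup.coe_mul, Subgroup.coe_mul, Units.val_mul, Units.val_mul, hc, smul_mul_assoc, mul_smul_comm, one_mul,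
    mul_one]

theorem scal_cube (hS : S ≤ Cfsg.Geo.specialLinear (Fin 3) F) {z : S} (_hz : m.π z = 1) {c : Fˣ}
    (hc : ((z : GL (Fin 3) F) : Matrix (Fin 3) (Fin 3) F) = (c : F) • (1 : Matrix (Fin 3) (Fin 3) F)) : c ^ 3 = 1 := by
  have h1 : Matrix.GeneralLinearGroup.det (z : GL (Fin 3) F) = 1 := hS z.2
  have h2 := congrArg (fun u : Fˣ => (u : F)) h1
  simp only [Matrix.GeneralLinearGroup.val_det_apply, Units.val_one] at h2
  rw [hc, Matrix.det_smul, Matrix.det_one, mul_one, Fintype.card_fin] at h2
  apply Units.ext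
  rw [Units.val_pow_eq_pow_val, h2, Units.val_one]

theorem cube_eq_one (hS : S ≤ Cfsg.Geo.specialLinear (Fin 3) F) {z : S} (hz : m.π z = 1) : z ^ 3 = 1 := by
  obtain ⟨c, hc⟩ := exists_scal m hz
  have h1 := scal_cube m hS hz hc
  apply Subtype.ext
  apply Units.ext
  rw [Subgroup.coe_pow, Units.val_pow_eq_pow_val, hc, smul_pow, one_pow, ← Units.val_pow_eq_pow_val, h1, Units.val_one,
    one_smul, Subgroup.coe_one, Units.val_one]

theorem card_ker_le (hS : S ≤ Cfsg.Geo.specialLinear (Fin 3) F) : Nat.card m.π.ker ≤ 3 := by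
  classical
  have hex : ∀ z : m.π.ker, ∃ c : rootsOfUnity 3 F, (((z : S) : GL (Fin 3) F) : Matrix (Fin 3) (Fin 3) F) =
      ((c : Fˣ) : F) • (1 : Matrix (Fin 3) (Fin 3) F) := by
    intro z
    obtain ⟨c, hc⟩ := exists_scal m z.2
    exact ⟨⟨c, scal_cube m hS z.2 hc⟩, hc⟩
  choose f hf using hex
  have hinj : Function.Injective f := by
    intro a b h
    apply Subtype.ext
    apply Subtype.ext
    apply Units.ext
    rw [hf a, hf b, h]
  exact (Nat.card_le_card_of_injective f hinj).trans (card_rootsOfUnity F 3)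

/-- an abelian `s`-subgroup of exponent `s` has order at most `s²` -/
theorem card_elab_le [Finite F] {p : ℕ} [hp : Fact p.Prime] [CharP F p] (hS : S ≤ Cfsg.Geo.specialLinear (Fin 3) F)
    {s : ℕ} (hs : s.Prime) (hsp : s ≠ p) (E : Subgroup L) (hE1 : ∀ a ∈ E, ∀ b ∈ E, a * b = b * a)
    (hE2 : ∀ a ∈ E, a ^ s = 1) : Nat.card E ≤ s ^ 2 := by
  classical
  set E' : Subgroup S := E.comap m.π with hE'
  have hkE : m.π.ker ≤ E' := by
    intro z hz
    show m.π z ∈ E
    rw [MonoidHom.mem_ker.1 hz]
    exact E.one_mem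
  have hk0 : 0 < Nat.card m.π.ker := Nat.card_pos
  -- the order of `E'`
  have hcard : Nat.card E' = Nat.card E * Nat.card m.π.ker := by
    rw [card_eq_range_mul_ker (m.π.comp E'.subtype)]
    congr 1
    · have h1 : (m.π.comp E'.subtype).range = E := by
        rw [MonoidHom.range_comp, Subgroup.range_subtype, hE', Subgroup.map_comap_eq_self_of_surjective m.surj]
      rw [h1]
    · have h1 : (m.π.comp E'.subtype).ker = m.π.ker.subgroupOf E' := by
        ext z
        rw [MonoidHom.mem_ker, Subgroup.mem_subgroupOf, MonoidHom.mem_ker]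
        rfl
      rw [h1, Nat.card_congr (Subgroup.subgroupOfEquivOfLe hkE).toEquiv]
  by_cases hab : ∀ a ∈ E', ∀ b ∈ E', a * b = b * a
  · -- the abelian case
    let _ : CommGroup E' :=
      { (inferInstance : Group E') with mul_comm := fun a b => Subtype.ext (hab a a.2 b b.2) }
    let φ : E' →* E' := powMonoidHom s
    have hφ : ∀ a : E', φ a = a ^ s := fun a => rfl
    have h1 : Nat.card φ.range ≤ Nat.card m.π.ker := by
      rw [← Nat.card_congr (Subgroup.subgroupOfEquivOfLe hkE).toEquiv]
      apply Subgroup.card_le_of_le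
      rintro _ ⟨a, rfl⟩
      rw [Subgroup.mem_subgroupOf, MonoidHom.mem_ker, hφ]
      show m.π ((a : S) ^ s) = 1
      rw [map_pow]
      exact hE2 _ a.2
    have h2 : Nat.card φ.ker ≤ s ^ 2 := by
      have hsF : (s : F) ≠ 0 := by
        intro e
        have h3 := (CharP.cast_eq_zero_iff F p s).1 e
        exact hsp ((Nat.prime_dvd_prime_iff_eq hp.out hs).1 h3).symm
      refine Cfsg.Agent.SigZeroU5.card_le_pow_det hs hsF 2 (Fin 3 → F) (by simp) φ.ker ?_
        ((toEnd F).comp (S.subtype.comp (E'.subtype.comp φ.ker.subtype))) ?_ ?_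
      · intro a
        apply Subtype.ext
        exact a.2
      · exact toEnd_injective.comp (S.subtype_injective.comp (E'.subtype_injective.comp φ.ker.subtype_injective))
      · intro a
        have h3 : Matrix.GeneralLinearGroup.det (((a : E') : S) : GL (Fin 3) F) = 1 := hS ((a : E') : S).2
        have h4 := congrArg (fun u : Fˣ => (u : F)) h3
        simp only [Matrix.GeneralLinearGroup.val_det_apply, Units.val_one] at h4
        show LinearMap.det (Matrix.toLin' ((((a : E') : S) : GL (Fin 3) F) : Matrix (Fin 3) (Fin 3) F)) = 1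
        rw [LinearMap.det_toLin', h4]
    have h3 := card_eq_range_mul_ker φ
    rw [hcard] at h3
    have h4 : Nat.card E * Nat.card m.π.ker ≤ s ^ 2 * Nat.card m.π.ker := by
      rw [h3, mul_comm]
      exact Nat.mul_le_mul h2 h1
    exact Nat.le_of_mul_le_mul_right h4 hk0
  · -- the nonabelian case
    push Not at hab
    obtain ⟨x, hx, y, hy, hxy⟩ := hab
    have hcomm : ∀ a ∈ E', ∀ b ∈ E', m.π ⁅a, b⁆ = 1 := by
      intro a ha b hb
      rw [map_commutatorElement, commutatorElement_eq_one_iff_mul_comm]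
      exact hE1 _ ha _ hb
    have hhom : ∀ y ∈ E', ∃ f : E' →* S, ∀ z : E', f z = ⁅(z : S), y⁆ := by
      intro y hy
      refine ⟨{ toFun := fun z => ⁅(z : S), y⁆, map_one' := by simp, map_mul' := ?_ }, fun z => rfl⟩
      intro a b
      have h1 := ker_central m (hcomm b b.2 y hy)
      have h2 : ⁅((a * b : E') : S), y⁆ = (a : S) * ⁅(b : S), y⁆ * (a : S)⁻¹ * ⁅(a : S), y⁆ := by
        rw [Subgroup.coe_mul, commutatorElement_def, commutatorElement_def, commutatorElement_def]
        group
      rw [h2, ← h1 (a : S), mul_assoc ⁅(b : S), y⁆, mul_inv_cancel, mul_one, h1]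
    obtain ⟨f, hf⟩ := hhom x hx
    obtain ⟨g, hg⟩ := hhom y hy
    set c : S := ⁅x, y⁆ with hcdef
    have hc1 : c ≠ 1 := by
      rw [hcdef, Ne, commutatorElement_eq_one_iff_mul_comm]
      exact hxy
    have hcπ : m.π c = 1 := hcomm x hx y hy
    have hc3 : c ^ 3 = 1 := cube_eq_one m hS hcπ
    -- `s = 3`
    have hs3 : s = 3 := by
      by_contra hne
      have h1 : c ^ s = 1 := by
        have h2 : c = g ⟨x, hx⟩ := (hg ⟨x, hx⟩).symm
        rw [h2, ← map_pow, hg]
        rw [commutatorElement_eq_one_iff_mul_comm]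
        apply ker_central m
        show m.π (x ^ s) = 1
        rw [map_pow]
        exact hE2 _ hx
      have hcop : Nat.Coprime 3 s := (Nat.coprime_primes Nat.prime_three hs).2 (Ne.symm hne)
      apply hc1
      rw [← orderOf_eq_one_iff]
      exact Nat.eq_one_of_dvd_coprimes hcop (orderOf_dvd_of_pow_eq_one hc3) (orderOf_dvd_of_pow_eq_one h1)
    subst hs3
    -- the kernel of the pairing
    obtain ⟨γ, hγ⟩ := exists_scal m hcπ
    have hγ1 : algebraMap F (AlgebraicClosure F) (γ : F) ≠ 1 := by
      intro e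
      rw [← map_one (algebraMap F (AlgebraicClosure F))] at e
      have e1 := (algebraMap F (AlgebraicClosure F)).injective e
      apply hc1
      apply Subtype.ext
      apply Units.ext
      rw [hγ, e1, one_smul, Subgroup.coe_one, Units.val_one]
    have hγ3 : (algebraMap F (AlgebraicClosure F) (γ : F)) ^ 3 = 1 := by
      rw [← map_pow, ← Units.val_pow_eq_pow_val, scal_cube m hS hcπ hγ, Units.val_one, map_one]
    have hcE : toEndK F (c : GL (Fin 3) F) = (algebraMap F (AlgebraicClosure F) (γ : F)) •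
        (1 : Module.End (AlgebraicClosure F) (Fin 3 → AlgebraicClosure F)) := by
      rw [toEndK_apply, hγ]
      have h1 : ((γ : F) • (1 : Matrix (Fin 3) (Fin 3) F)).map (algebraMap F (AlgebraicClosure F)) =
          (algebraMap F (AlgebraicClosure F) (γ : F)) • (1 : Matrix (Fin 3) (Fin 3) (AlgebraicClosure F)) := by
        ext i j
        rw [Matrix.map_apply, Matrix.smul_apply, Matrix.smul_apply, Matrix.one_apply, Matrix.one_apply]
        split_ifs <;> simp
      rw [h1, map_smul, Matrix.toLin'_one]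
      rfl
    have hxyE : toEndK F (x : GL (Fin 3) F) * toEndK F (y : GL (Fin 3) F) =
        (algebraMap F (AlgebraicClosure F) (γ : F)) • (toEndK F (y : GL (Fin 3) F) * toEndK F (x : GL (Fin 3) F)) := by
      have h1 : x * y = c * (y * x) := by
        rw [hcdef, commutatorElement_def]
        group
      have h2 : (x : GL (Fin 3) F) * (y : GL (Fin 3) F) = (c : GL (Fin 3) F) * ((y : GL (Fin 3) F) * (x : GL (Fin 3) F)) :=
        congrArg Subtype.val h1
      rw [← map_mul, h2, map_mul, map_mul, hcE, smul_mul_assoc, one_mul]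
    have hker : ∀ z : E', f z = 1 → g z = 1 → m.π z = 1 := by
      intro z h1 h2
      rw [hf, commutatorElement_eq_one_iff_mul_comm] at h1
      rw [hg, commutatorElement_eq_one_iff_mul_comm] at h2
      have h1' : ((z : S) : GL (Fin 3) F) * (x : GL (Fin 3) F) = (x : GL (Fin 3) F) * ((z : S) : GL (Fin 3) F) :=
        congrArg Subtype.val h1
      have h2' : ((z : S) : GL (Fin 3) F) * (y : GL (Fin 3) F) = (y : GL (Fin 3) F) * ((z : S) : GL (Fin 3) F) :=
        congrArg Subtype.val h2
      obtain ⟨μ, hμ⟩ := scalar_of_comm (K := AlgebraicClosure F) (V := Fin 3 → AlgebraicClosure F) (by simp) hγ1 hγ3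
        hxyE (injective_toEndK _) (injective_toEndK _) (z := toEndK F ((z : S) : GL (Fin 3) F))
        (by rw [← map_mul, h1', map_mul]) (by rw [← map_mul, h2', map_mul])
      exact (m.ker _).2 (mem_scalars_of_toEndK hμ)
    have h1 := card_eq_range_mul_ker (f.prod g)
    have h2 : Nat.card (f.prod g).range ≤ 3 * 3 := by
      have h3 : (f.prod g).range ≤ (m.π.ker).prod (m.π.ker) := by
        rintro _ ⟨z, rfl⟩
        rw [Subgroup.mem_prod]
        refine ⟨?_, ?_⟩
        · show f z ∈ m.π.ker
          rw [MonoidHom.mem_ker, hf]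
          exact hcomm z z.2 x hx
        · show g z ∈ m.π.ker
          rw [MonoidHom.mem_ker, hg]
          exact hcomm z z.2 y hy
      refine (Subgroup.card_le_of_le h3).trans ?_
      rw [Nat.card_congr ((m.π.ker).prodEquiv (m.π.ker)).toEquiv, Nat.card_prod]
      exact Nat.mul_le_mul (card_ker_le m hS) (card_ker_le m hS)
    have h3 : Nat.card (f.prod g).ker ≤ Nat.card m.π.ker := by
      rw [← Nat.card_congr (Subgroup.subgroupOfEquivOfLe hkE).toEquiv]
      apply Subgroup.card_le_of_le
      intro z hz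
      rw [MonoidHom.mem_ker] at hz
      rw [Subgroup.mem_subgroupOf, MonoidHom.mem_ker]
      exact hker z (congrArg Prod.fst hz) (congrArg Prod.snd hz)
    rw [hcard] at h1
    have h4 : Nat.card E * Nat.card m.π.ker ≤ 3 ^ 2 * Nat.card m.π.ker := by
      rw [h1]
      exact Nat.mul_le_mul h2 h3
    exact Nat.le_of_mul_le_mul_right h4 hk0

/-- no `T × T`, `T` simple nonabelian -/
theorem no_TT [Finite F] (T : Type) [Group T] (f : T × T →* L) (hT : IsSimpleGroup T) (hTn : ¬ IsMulCommutative T) :
    ¬ Function.Injective f := by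
  intro hf
  have hTs : ¬ Group.IsSolvable T := by
    intro hs
    apply hTn
    exact ⟨⟨IsSimpleGroup.comm_iff_isSolvable.2 hs⟩⟩
  have key : ∀ u : T →* L, Function.Injective u → ∃ D : Subgroup S, (∀ d ∈ D, ∃ t, m.π d = u t) ∧ ⁅D, D⁆ = D ∧ D ≠ ⊥ := by
    intro u hu
    obtain ⟨D, h1, h2, h3⟩ := exists_perfect_residual (u.range.comap m.π)
    refine ⟨D, ?_, h2, ?_⟩
    · intro d hd
      obtain ⟨t, ht⟩ := h1 hd
      exact ⟨t, ht.symm⟩
    · intro e
      have h4 := h3 e
      apply hTs
      -- the image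
      let g : (u.range.comap m.π) →* u.range := m.π.subgroupComap u.range
      have hg : Function.Surjective g := by
        rintro ⟨l, hl⟩
        obtain ⟨s, rfl⟩ := m.surj l
        exact ⟨⟨s, hl⟩, rfl⟩
      have h5 : Group.IsSolvable u.range := Group.isSolvable_of_surjective hg
      have h6 : Function.Injective (MonoidHom.ofInjective hu).toMonoidHom := (MonoidHom.ofInjective hu).injective
      exact Group.isSolvable_of_isSolvable_injective h6
  obtain ⟨D₁, hD₁, hp₁, hn₁⟩ := key (f.comp (MonoidHom.inl T T)) (hf.comp (by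
    intro a b h
    exact congrArg Prod.fst h))
  obtain ⟨D₂, hD₂, hp₂, hn₂⟩ := key (f.comp (MonoidHom.inr T T)) (hf.comp (by
    intro a b h
    exact congrArg Prod.snd h))
  have hker : ∀ z ∈ ⁅D₁, D₂⁆, m.π z = 1 := by
    have h1 : ⁅D₁, D₂⁆ ≤ m.π.ker := by
      rw [Subgroup.commutator_le]
      intro a ha b hb
      obtain ⟨t, ht⟩ := hD₁ a ha
      obtain ⟨t', ht'⟩ := hD₂ b hb
      rw [MonoidHom.mem_ker, map_commutatorElement, ht, ht', commutatorElement_eq_one_iff_mul_comm]
      show f (t, 1) * f (1, t') = f (1, t') * f (t, 1)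
      rw [← map_mul, ← map_mul]
      congr 1
      rw [Prod.mk_mul_mk, Prod.mk_mul_mk, mul_one, one_mul, one_mul, mul_one]
    exact fun z hz => MonoidHom.mem_ker.1 (h1 hz)
  have hcen : ⁅⁅D₁, D₂⁆, D₁⁆ = ⊥ := by
    rw [eq_bot_iff, Subgroup.commutator_le]
    intro z hz d _
    rw [Subgroup.mem_bot, commutatorElement_eq_one_iff_mul_comm]
    exact ker_central m (hker z hz) d
  have hcomm : ⁅D₁, D₂⁆ = ⊥ := by
    have h1 := Subgroup.commutator_commutator_eq_bot_of_rotate (H₁ := D₁) (H₂ := D₁) (H₃ := D₂) hcen (by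
      rw [Subgroup.commutator_comm D₂ D₁]
      exact hcen)
    rwa [hp₁] at h1
  have hc : ∀ a ∈ D₁, ∀ b ∈ D₂, a * b = b * a := by
    intro a ha b hb
    have h1 := Subgroup.commutator_mem_commutator ha hb
    rw [hcomm, Subgroup.mem_bot, commutatorElement_eq_one_iff_mul_comm] at h1
    exact h1
  have htop : ∀ D : Subgroup S, ⁅D, D⁆ = D → ⁅(⊤ : Subgroup D), (⊤ : Subgroup D)⁆ = ⊤ := by
    intro D hD
    apply Subgroup.map_injective D.subtype_injective
    rw [Subgroup.map_commutator, ← MonoidHom.range_eq_map, Subgroup.range_subtype, hD]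
  have hres : ∀ D : Subgroup S, (∀ d : D, ((toEndK F).comp (S.subtype.comp D.subtype)) d = 1) → D = ⊥ := by
    intro D hD
    rw [Subgroup.eq_bot_iff_forall]
    intro d hd
    have h1 := hD ⟨d, hd⟩
    have h2 : toEndK F (d : GL (Fin 3) F) = toEndK F 1 := by
      rw [map_one]
      exact h1
    exact Subtype.ext (toEndK_injective h2)
  rcases no_two (K := AlgebraicClosure F) (V := Fin 3 → AlgebraicClosure F) (by simp) (htop D₁ hp₁) (htop D₂ hp₂)
    ((toEndK F).comp (S.subtype.comp D₁.subtype)) ((toEndK F).comp (S.subtype.comp D₂.subtype)) (by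
    intro g h
    show toEndK F _ * toEndK F _ = toEndK F _ * toEndK F _
    rw [← map_mul, ← map_mul]
    congr 1
    exact congrArg Subtype.val (hc g g.2 h h.2)) with h | h
  · exact hn₁ (hres D₁ h)
  · exact hn₂ (hres D₂ h)

/-- **projective groups in dimension three** -/
theorem rkTwo_of_model [Finite F] {p : ℕ} [Fact p.Prime] [CharP F p] (hS : S ≤ Cfsg.Geo.specialLinear (Fin 3) F) :
    RkTwo p L where
  ab := fun _ hs hsp E h1 h2 => card_elab_le m hS hs hsp E h1 h2
  nonab := fun T _ f h1 h2 => no_TT m T f h1 h2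

end grp

end Cfsg.Agent.H196.EP
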