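import Mathlib
import Cfsg.Agent.H284.EP.TForm
import Cfsg.Agent.RuRed.SzRelMore
import Cfsg.Agent.ThreePrime.SzDataExists

/-!
# S3499, a Suzuki socle (helper196)

`Em A f` : `A` is almost simple with socle the image of `f : J → Q`. For `J` a Suzuki group (parametrised by `R`) and
`EPT A Γ`: the elements `x ∉ A` centralising the Sylow `2`-subgroup `T` of the socle satisfy `D ≤ A^x` (`Em.key`).
-/

set_option autoImplicit false

namespace Cfsg.Agent.H196.EP

open Subgroup Cfsg.Agent.H284 Cfsg.Agent.ThreePrime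

variable {Q : Type*} [Group Q] {A : Subgroup Q} {Γ : Subgroup (MulAut Q)}
  {J : Type*} [Group J] {F : Type*} [Field F] {m : ℕ} {f : J →* Q}

/-- `A` is almost simple with socle the image of `J` -/
structure Em (A : Subgroup Q) (f : J →* Q) : Prop where
  inj : Function.Injective f
  le : ∀ j, f j ∈ A
  norm : ∀ a ∈ A, ∀ j, ∃ j', a * f j * a⁻¹ = f j'
  cent : ∀ a ∈ A, (∀ j, a * f j = f j * a) → a = 1

namespace Em

theorem le_normalizer (E : Em A f) : A ≤ Subgroup.normalizer (f.range : Set Q) := by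
  intro a ha
  rw [Subgroup.mem_normalizer_iff]
  intro y
  constructor
  · rintro ⟨j, rfl⟩
    obtain ⟨j', hj'⟩ := E.norm a ha j
    exact ⟨j', hj'.symm⟩
  · rintro ⟨j, hj⟩
    obtain ⟨j', hj'⟩ := E.norm a⁻¹ (A.inv_mem ha) j
    refine ⟨j', ?_⟩
    rw [← hj', hj]
    group

/-- `A` acts on `J` -/
noncomputable def hom (E : Em A f) : A →* MulAut J :=
  (MulAut.congr (MonoidHom.ofInjective E.inj).symm).toMonoidHom.comp
    ((f.range).normalizerMonoidHom.comp (inclusion E.le_normalizer))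

theorem f_hom (E : Em A f) (a : A) (j : J) : f (E.hom a j) = a * f j * (a : Q)⁻¹ := by
  have h1 : (MonoidHom.ofInjective E.inj) (E.hom a j) =
      (f.range).normalizerMonoidHom (inclusion E.le_normalizer a) (MonoidHom.ofInjective E.inj j) := by
    show (MonoidHom.ofInjective E.inj) ((MonoidHom.ofInjective E.inj).symm _) = _
    rw [MulEquiv.apply_symm_apply]
    rfl
  exact congrArg Subtype.val h1

variable [Fintype F] [Finite J]

/-- the `2`-elements of `A` are in the socle -/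
theorem exists_of_two (E : Em A f) (R : SzRel.Rel J F) (hm : 1 ≤ m) (hF : Fintype.card F = 2 ^ (2 * m + 1)) {a : Q}
    (ha : a ∈ A) {k : ℕ} (hk : a ^ 2 ^ k = 1) : ∃ j, f j = a := by
  obtain ⟨j, hj⟩ := R.inner hm hF (E.hom ⟨a, ha⟩) ⟨k, by
    rw [← map_pow]
    have h1 : (⟨a, ha⟩ : A) ^ 2 ^ k = 1 := Subtype.ext hk
    rw [h1, map_one]⟩
  refine ⟨j, ?_⟩
  have h1 : (f j)⁻¹ * a = 1 := by
    apply E.cent _ (A.mul_mem (A.inv_mem (E.le j)) ha)
    intro i
    have h2 := E.f_hom ⟨a, ha⟩ i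
    rw [hj, MulAut.conj_apply, map_mul, map_mul, map_inv] at h2
    have h3 : f j * f i * (f j)⁻¹ * a = a * f i := by
      rw [h2]
      group
    rw [mul_assoc, ← h3]
    group
  rwa [inv_mul_eq_one] at h1

variable [Finite Q]

/-- `soc A` is not in `A^x` -/
theorem not_le [IsSimpleGroup Q] [IsSimpleGroup J] (E : Em A f) (R : SzRel.Rel J F) (hm : 1 ≤ m)
    (hF : Fintype.card F = 2 ^ (2 * m + 1)) (hmax : IsCoatom A) {x : Q} (hx : x ∉ A) : ∃ j, x⁻¹ * f j * x ∉ A := by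
  by_contra hcon
  push Not at hcon
  have key : ∀ j : J, j ^ 2 ^ 2 = 1 → x⁻¹ * f j * x ∈ f.range := by
    intro j hj
    obtain ⟨i, hi⟩ := E.exists_of_two R hm hF (hcon j) (k := 2) (by
      have h1 : x⁻¹ * f j * x = x⁻¹ * f j * x⁻¹⁻¹ := by rw [inv_inv]
      rw [h1, conj_pow, ← map_pow, hj, map_one, mul_one, mul_inv_cancel])
    exact ⟨i, hi⟩
  have hT4 : ∀ t ∈ R.T, t ^ 2 ^ 2 = 1 := fun t ht => R.pow_four ht
  let H : Subgroup J :=
    { carrier := {j | x⁻¹ * f j * x ∈ f.range}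
      one_mem' := by
        show x⁻¹ * f 1 * x ∈ f.range
        rw [map_one, mul_one, inv_mul_cancel]
        exact one_mem _
      mul_mem' := by
        intro a b ha hb
        show x⁻¹ * f (a * b) * x ∈ f.range
        have h1 : x⁻¹ * f (a * b) * x = (x⁻¹ * f a * x) * (x⁻¹ * f b * x) := by rw [map_mul]; group
        rw [h1]
        exact mul_mem ha hb
      inv_mem' := by
        intro a ha
        show x⁻¹ * f a⁻¹ * x ∈ f.range
        have h1 : x⁻¹ * f a⁻¹ * x = (x⁻¹ * f a * x)⁻¹ := by rw [map_inv]; group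
        rw [h1]
        exact inv_mem ha }
  have hH : H = ⊤ := R.sup_eq_top (H := H) (g := R.w) (fun t ht => key t (hT4 t ht)) (fun t ht => key _ (by
    rw [conj_pow, hT4 t ht, mul_one, mul_inv_cancel])) R.w_not_mem_normalizer
  have h2 : ∀ j, x⁻¹ * f j * x ∈ f.range := fun j => by
    have : j ∈ H := by rw [hH]; exact mem_top _
    exact this
  have h3 : (f.range).map (MulAut.conj x⁻¹).toMonoidHom = f.range := by
    refine Subgroup.eq_of_le_of_card_ge ?_ ?_
    · rintro _ ⟨_, ⟨j, rfl⟩, rfl⟩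
      show x⁻¹ * f j * x⁻¹⁻¹ ∈ f.range
      rw [inv_inv]
      exact h2 j
    · rw [Nat.card_congr ((f.range).equivMapOfInjective (MulAut.conj x⁻¹).toMonoidHom
        (MulAut.conj x⁻¹).injective).toEquiv]
  have hxN : x ∈ Subgroup.normalizer (f.range : Set Q) := by
    rw [← inv_inv x]
    apply inv_mem
    rw [Subgroup.mem_normalizer_iff]
    intro y
    constructor
    · rintro ⟨j, rfl⟩
      rw [inv_inv]
      exact h2 j
    · intro hy
      have h4 : (MulAut.conj x⁻¹) y ∈ (f.range).map (MulAut.conj x⁻¹).toMonoidHom := by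
        rw [h3]
        exact hy
      obtain ⟨z, hz, hzy⟩ := h4
      rwa [← (MulAut.conj x⁻¹).injective hzy]
  have h5 : Subgroup.normalizer (f.range : Set Q) = ⊤ := by
    apply hmax.2
    refine lt_of_le_of_ne E.le_normalizer ?_
    intro he
    apply hx
    rw [he]
    exact hxN
  have h6 : f.range.Normal := Subgroup.normalizer_eq_top_iff.1 h5
  rcases h6.eq_bot_or_eq_top with h7 | h7
  · have h8 : f R.w ∈ f.range := ⟨_, rfl⟩
    rw [h7, mem_bot] at h8
    exact R.w_ne_one (E.inj (by rw [h8, map_one]))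
  · apply hmax.1
    rw [eq_top_iff, ← h7]
    rintro _ ⟨j, rfl⟩
    exact E.le j

/-- the `2`-elements of `N_J(T)` -/
theorem _root_.Cfsg.Agent.H196.EP.two_mem_T (R : SzRel.Rel J F) (hm : 1 ≤ m) (hF : Fintype.card F = 2 ^ (2 * m + 1)) {j : J}
    (hj : j ∈ Subgroup.normalizer (R.T : Set J)) {k : ℕ} (hk : j ^ 2 ^ k = 1) : j ∈ R.T := by
  have : Fact (Nat.Prime 2) := ⟨Nat.prime_two⟩
  obtain ⟨P, hP⟩ := R.exists_sylow_eq hm hF
  have h1 : IsPGroup 2 (Subgroup.zpowers j) := by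
    rintro ⟨_, i, rfl⟩
    refine ⟨k, Subtype.ext ?_⟩
    show (j ^ i) ^ 2 ^ k = 1
    rw [← zpow_natCast, ← zpow_mul, mul_comm, zpow_mul, zpow_natCast, hk, one_zpow]
  have h2 := h1.inf_normalizer_sylow P
  have h3 : j ∈ Subgroup.zpowers j ⊓ Subgroup.normalizer (P : Set J) := by
    refine ⟨Subgroup.mem_zpowers j, ?_⟩
    have h4 : ((P : Subgroup J) : Set J) = (R.T : Set J) := by rw [hP]
    show j ∈ Subgroup.normalizer ((P : Subgroup J) : Set J)
    rw [h4]
    exact hj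
  rw [h2] at h3
  rw [← hP]
  exact h3.2

/-- **Key**: `x ∉ A` centralises `T`, then `D ≤ A^x`. -/
theorem key [IsSimpleGroup Q] [IsSimpleGroup J] (E : Em A f) (R : SzRel.Rel J F) (hm : 1 ≤ m)
    (hF : Fintype.card F = 2 ^ (2 * m + 1)) (h : EPT A Γ) {x : Q} (hx : x ∉ A) (hxT : ∀ t ∈ R.T, x * f t = f t * x)
    (l : Fˣ) : x⁻¹ * f (R.d l) * x ∈ A := by
  have hT : ∀ t ∈ R.T, f t ∈ A ⊓ cj x A := by
    intro t ht
    refine ⟨E.le t, mem_cj.2 ?_⟩
    have h1 : x⁻¹ * f t * x = f t := by rw [mul_assoc, ← hxT t ht, inv_mul_cancel_left]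
    rw [h1]
    exact E.le t
  have h2 : ∀ y ∈ A ⊓ cj x A, ∀ k : ℕ, y ^ 2 ^ k = 1 → y ∈ R.T.map f := by
    intro y hy k hk
    obtain ⟨j, rfl⟩ := E.exists_of_two R hm hF (mem_inf.1 hy).1 hk
    have hj2 : j ^ 2 ^ k = 1 := E.inj (by rw [map_pow, hk, map_one])
    refine ⟨j, two_mem_T R hm hF ?_ hj2, rfl⟩
    by_contra hj
    have h3 : (A ⊓ cj x A).comap f = ⊤ := R.sup_eq_top (H := (A ⊓ cj x A).comap f) (g := j) (fun t ht => hT t ht)
      (fun t ht => by
        show f (j * t * j⁻¹) ∈ A ⊓ cj x A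
        rw [map_mul, map_mul, map_inv]
        exact mul_mem (mul_mem hy (hT t ht)) (inv_mem hy)) hj
    obtain ⟨i, hi⟩ := E.not_le R hm hF h.max hx
    apply hi
    have h4 : i ∈ (A ⊓ cj x A).comap f := by rw [h3]; exact mem_top _
    exact mem_cj.1 (mem_inf.1 h4).2
  have h3 : f (R.d l) ∈ cj x A := by
    refine h.norm_aut hx (K := R.T.map f) ?_ ?_ ?_ (E.le _) ?_
    · rintro _ ⟨t, ht, rfl⟩
      exact hT t ht
    · rintro σ hσ _ ⟨t, ht, rfl⟩
      refine h2 _ (hσ _ (hT t ht)) 2 ?_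
      have h6 : t ^ 2 ^ 2 = 1 := R.pow_four ht
      rw [← map_pow, ← map_pow, h6, map_one, map_one]
    · intro he
      have h5 : f (R.u 0 1) ∈ R.T.map f := ⟨_, R.u_mem 0 1, rfl⟩
      rw [he, mem_bot] at h5
      exact R.u_ne_one one_ne_zero (E.inj (by rw [h5, map_one]))
    · rintro _ ⟨t, ht, rfl⟩
      refine ⟨R.d l * t * (R.d l)⁻¹, ?_, by rw [map_mul, map_mul, map_inv]⟩
      exact (Subgroup.mem_normalizer_iff.1 (R.D_le (R.d_mem l)) t).1 ht
  exact mem_cj.1 h3

end Em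

end Cfsg.Agent.H196.EP
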